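import Cfsg.Agent.Lib.Calc.TMCls

/-!
# Chains of commuting transpositions inside an invariant set of points

`SK` is the stabilizer of a set of points given by a mask, `St` the stabilizer in it of the points of a chain, and `Ys` the
set of the other points that commute with the points of the chain.
-/

set_option autoImplicit false

namespace Cfsg.Lib.F23

open Subgroup Cfsg.Lib.Calc

variable {U X : Type*} [Group U] [MulAction U X]

/-- One level: point, word carrying the base point to it, words moving it, rounds, length of the orbit. -/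
structure Lv where
  /-- the point -/
  b : ℕ
  /-- the word for the point -/
  u : W
  /-- words that move the point -/
  ts : List W
  /-- rounds -/
  r : ℕ
  /-- length of the orbit -/
  m : ℕ

variable (U) in
/-- The stabilizer of a set of points. -/
def SK (n : ℕ) (pt : ℕ → X) (S : ℕ) : Subgroup U where
  carrier := {g | ∀ x, g • x ∈ maskSet n pt S ↔ x ∈ maskSet n pt S}
  one_mem' := fun x => by rw [one_smul]
  mul_mem' := fun {a b} ha hb x => by rw [mul_smul, ha, hb]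
  inv_mem' := fun {a} ha x => by rw [← ha, smul_inv_smul]

variable (U) in
/-- The stabilizer of the points of a chain. -/
def St (n : ℕ) (pt : ℕ → X) (S : ℕ) : List Lv → Subgroup U
  | [] => SK U n pt S
  | Q :: l => St n pt S l ⊓ MulAction.stabilizer U (pt Q.b)

theorem mem_St {n : ℕ} {pt : ℕ → X} {S : ℕ} {l : List Lv} {g : U} :
    g ∈ St U n pt S l ↔ g ∈ SK U n pt S ∧ ∀ Q ∈ l, g • pt Q.b = pt Q.b := by
  induction l with
  | nil => simp [St]
  | cons Q l ih =>
    rw [St, mem_inf, ih, List.forall_mem_cons, MulAction.mem_stabilizer_iff]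
    tauto

/-- The check of a level. -/
noncomputable def lvOK (N : Net) (n iv p : ℕ) (mp : W → ℕ → ℕ → Bool) (S : ℕ) (l : List Lv) (L : Lv) : Bool :=
  band (band (band (blt L.b n) (bit S L.b)) (l.all fun Q => mp Q.u p Q.b && mp (cw Q.u) L.b L.b && !Nat.beq L.b Q.b))
    (band (band (N.invOK iv L.ts S) (L.ts.all fun t => l.all fun Q => mp t Q.b Q.b))
      (forceB (N.orbM iv L.ts L.r L.b) fun O => band (cntOK n N.L O L.m)
        (Nat.beq (Nat.land S (Nat.lor (N.movL iv (l.map fun Q => cw Q.u)) (Nat.lor O (bitsM (l.map Lv.b))))) S)))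

theorem exists_fixed [Finite X] {q : ℕ} (hq : q.Prime) {g : U} (hg : g ^ q = 1) {Y : Set X} (hY : ∀ x ∈ Y, g • x ∈ Y)
    (h : ¬ q ∣ Y.ncard) : ∃ y ∈ Y, g • y = y := by
  classical
  have := Fact.mk hq
  have := Fintype.ofFinite Y
  let f : Function.End Y := fun x => ⟨g • x.1, hY x x.2⟩
  have hf : ∀ k (x : Y), ((f ^ k) x : X) = g ^ k • x.1 := fun k => by
    induction k with
    | zero => exact fun x => by rw [pow_zero g, one_smul]; rfl
    | succ k ih => exact fun x => by rw [pow_succ, pow_succ, mul_smul]; exact ih (f x)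
  have h1 := Equiv.Perm.card_fixedPoints_modEq (f := f) (p := q) (n := 1)
    (funext fun x => Subtype.ext (by rw [hf, pow_one, hg, one_smul]; rfl))
  by_contra hn
  have : IsEmpty (Function.fixedPoints f) := ⟨fun x => hn ⟨x.1.1, x.1.2, congrArg Subtype.val x.2⟩⟩
  rw [Fintype.card_eq_zero (α := Function.fixedPoints f), ← Nat.card_eq_fintype_card, Nat.card_coe_set_eq] at h1
  exact h ((Nat.modEq_zero_iff_dvd).1 h1)

section
variable {γ : ℕ → U} {iv : ℕ} {N : Net} {n : ℕ} {pt : ℕ → X} {p : ℕ} {mp : W → ℕ → ℕ → Bool}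
  (M : TModel γ iv N n pt p mp)

/-- The other points of the set that commute with the points of the chain. -/
def Ys (S : ℕ) (l : List Lv) : Set X :=
  {y | y ∈ maskSet n pt S ∧ ∀ Q ∈ l, M.act.tr (pt Q.b) • y = y ∧ y ≠ pt Q.b}

theorem smul_mem_Ys {S : ℕ} {l : List Lv} {g : U} (hg : g ∈ St U n pt S l) {y : X} (hy : y ∈ Ys M S l) :
    g • y ∈ Ys M S l := by
  obtain ⟨h1, h2⟩ := mem_St.1 hg
  refine ⟨(h1 y).2 hy.1, fun Q hQ => ⟨?_, fun e => (hy.2 Q hQ).2 ?_⟩⟩
  · rw [← h2 Q hQ, M.act.tr_smul, mul_smul, mul_smul, inv_smul_smul, (hy.2 Q hQ).1]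
  · exact MulAction.injective g (e.trans (h2 Q hQ).symm)

include M

theorem mem_SK {S : ℕ} {ts : List W} (h : N.invOK iv ts S = true) : ∀ t ∈ ts, t.ev γ ∈ SK U n pt S := fun t ht x =>
  ⟨fun hx => by
    have := M.ok.smul_mem_of_invOK M.inj M.lab M.acts h (inv_mem (mem_genW γ ht)) _ hx
    rwa [inv_smul_smul] at this, M.ok.smul_mem_of_invOK M.inj M.lab M.acts h (mem_genW γ ht) x⟩

theorem lv_spec {S : ℕ} {l : List Lv} {L : Lv} (hl : ∀ Q ∈ l, Q.b < n) (h : lvOK N n iv p mp S l L = true) :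
    L.b < n ∧ MulAction.orbit (St U n pt S l) (pt L.b) = Ys M S l ∧ (Ys M S l).ncard = L.m := by
  simp only [lvOK, band_eq_true, blt_iff, bit_eq, forceB_eq, List.all_eq_true, Bool.and_eq_true, beq_iff,
    Bool.not_eq_true'] at h
  obtain ⟨⟨⟨h1, h2⟩, h3⟩, ⟨h4, h5⟩, h6, h7⟩ := h
  have hb : pt L.b ∈ Ys M S l := ⟨(mem_maskSet M.inj h1).2 h2, fun Q hQ =>
    ⟨M.tr_eq (h3 Q hQ).1.1 ▸ M.map _ _ _ (h3 Q hQ).1.2, fun e => by
      have := (h3 Q hQ).2
      rw [beq_iff.2 (M.inj _ h1 _ (hl Q hQ) e)] at this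
      exact Bool.noConfusion this⟩⟩
  have a1 : MulAction.orbit (St U n pt S l) (pt L.b) ⊆ Ys M S l := by
    rintro _ ⟨g, rfl⟩
    exact smul_mem_Ys M g.2 hb
  have a2 : Ys M S l ⊆ maskSet n pt (N.orbM iv L.ts L.r L.b) := by
    rintro _ ⟨⟨i, hi, e, rfl⟩, hy⟩
    rw [← h7] at e
    change (S &&& (_ ||| (_ ||| _))).testBit i = true at e
    rw [Nat.testBit_and, Nat.testBit_or, Nat.testBit_or, M.ok.movL_false M.inj M.lab M.acts hi (by
      intro t ht
      obtain ⟨Q, hQ, rfl⟩ := List.mem_map.1 ht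
      exact M.tr_eq (h3 Q hQ).1.1 ▸ (hy Q hQ).1), Bool.false_or, Bool.and_eq_true, Bool.or_eq_true] at e
    rcases e.2 with e | e
    · exact ⟨i, hi, e, rfl⟩
    · obtain ⟨Q, hQ, rfl⟩ := List.mem_map.1 (mem_of_bitsM e)
      exact absurd rfl (hy Q hQ).2
  have a3 := M.ok.orbM_subset M.inj M.lab M.acts (H := St U n pt S l)
    (fun t ht => mem_St.2 ⟨mem_SK M h4 t ht, fun Q hQ => M.map _ _ _ (h5 t ht Q hQ)⟩) L.r L.b
  exact ⟨h1, a1.antisymm (a2.trans a3), by rw [a2.antisymm (a3.trans a1), ncard_of_cntOK M.inj h6]⟩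

theorem card_St {S : ℕ} {l : List Lv} {L : Lv} (hl : ∀ Q ∈ l, Q.b < n) (h : lvOK N n iv p mp S l L = true) :
    Nat.card (St U n pt S l) = L.m * Nat.card (St U n pt S (L :: l)) := by
  obtain ⟨-, h1, h2⟩ := lv_spec M hl h
  rw [← h2, ← h1, ← MulAction.index_stabilizer, ← (MulAction.stabilizer (St U n pt S l) (pt L.b)).index_mul_card, St,
    inf_comm, ← subgroupOf_map_subtype, card_map_of_injective (subtype_injective _)]
  rfl

theorem exists_conj {S : ℕ} {l : List Lv} {L : Lv} (hl : ∀ Q ∈ l, Q.b < n) (h : lvOK N n iv p mp S l L = true) {q : ℕ}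
    (hq : q.Prime) (hm : ¬ q ∣ L.m) {g : U} (hg : orderOf g = q) (hS : g ∈ St U n pt S l) :
    ∃ g' : U, orderOf g' = q ∧ g' ∈ St U n pt S (L :: l) := by
  have := M.finite
  obtain ⟨-, h1, h2⟩ := lv_spec M hl h
  obtain ⟨y, hy, e⟩ := exists_fixed hq (hg ▸ pow_orderOf_eq_one g) (fun x hx => smul_mem_Ys M hS hx) (h2 ▸ hm)
  obtain ⟨s, rfl⟩ := h1.ge hy
  refine ⟨(s : U)⁻¹ * g * s, ?_, mem_inf.2 ⟨mul_mem (mul_mem (inv_mem s.2) hS) s.2, ?_⟩⟩
  · rw [← hg, ← (MulAut.conj (s : U)⁻¹).orderOf_eq g, MulAut.conj_apply, inv_inv]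
  · rw [MulAction.mem_stabilizer_iff, mul_smul, mul_smul, inv_smul_eq_iff]
    exact e

end

/-- One step down the derived series. -/
theorem comm_mem {H : Subgroup U} {k : ℕ} {c h : U} (hc : c ∈ (derivedSeries H k).map H.subtype) (hh : h ∈ H) :
    c * (h * c * h⁻¹) * c⁻¹ * (h * c * h⁻¹)⁻¹ ∈ (derivedSeries H (k + 1)).map H.subtype := by
  obtain ⟨x, hx, rfl⟩ := hc
  exact ⟨_, commutator_mem_commutator hx ((derivedSeries_normal H k).conj_mem x hx ⟨h, hh⟩), rfl⟩

theorem derived_ne {H : Type*} [Group H] (hs : Group.IsSolvable H) {k : ℕ} (h : derivedSeries H k ≠ ⊥) :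
    derivedSeries H (k + 1) ≠ derivedSeries H k := fun e => by
  obtain ⟨m, hm⟩ := hs.solvable
  have : ∀ j, derivedSeries H (k + j) = derivedSeries H k := fun j => by
    induction j with
    | zero => rfl
    | succ j ih => rw [← add_assoc, derivedSeries_succ, ih, ← derivedSeries_succ, e]
  refine h (eq_bot_iff.2 ?_)
  rw [← this m, ← hm]
  exact derivedSeries_antitone H (Nat.le_add_left m k)

end Cfsg.Lib.F23
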