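import Cfsg.Agent.Lib.F23.Lv
import Cfsg.Agent.Lib.Calc.Fi23TM
import Cfsg.Agent.Lib.Char.Burnside

/-!
# The solvable maximal subgroup `3^(1+8).2^(1+6).3^(1+2).2S4` of `Fi23`

It is the stabilizer of a set of 324 transpositions.
-/

set_option autoImplicit false
set_option maxRecDepth 1000000
set_option maxHeartbeats 0
set_option Elab.async false

namespace Cfsg.Lib.F23

open Subgroup Cfsg.Lib.Calc Cfsg.Lib.Calc.Fi23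

def S0 : ℕ := Nat.lor orb0 orb1
def h1 : List W := [wd [6, 7, 10, 5, 2, 3, 4, 8, 6, 7, 5, 6, 4, 5, 3, 4, 8, 2, 3, 4, 5, 6, 7, 10, 3, 4, 8, 9, 5, 4, 8, 3, 4, 5, 6, 7, 4, 5, 3, 4, 8, 2, 3, 4, 5, 6, 4, 8, 9, 5, 4, 8, 3, 4, 5, 4, 8, 3, 4, 3, 9], wd [9, 6, 4, 5, 3, 4, 8, 2, 3, 4, 5, 6, 7, 10, 5, 6, 3, 4, 5, 2, 3, 4, 8, 9, 8, 4, 5, 3, 4, 8, 2, 3, 4, 5, 6, 7, 8, 9, 5, 6, 4, 5, 3, 4, 8, 2, 3, 4, 5, 6, 3, 4, 8, 9, 5, 4, 8, 2, 3, 4, 5, 9, 8, 2, 3, 4, 9, 8, 2, 9], wd [2, 3, 4, 5, 6, 7, 10, 9, 8, 7, 5, 6, 4, 5, 3, 4, 8, 9, 8, 3, 4, 5, 2, 3, 4, 8, 1, 2, 3, 4, 5, 6, 7, 6, 5, 2, 3, 4, 8, 9, 5, 3, 4, 8, 2, 3, 4, 5, 6, 3, 4, 8, 1, 2, 3, 4, 5, 3, 4, 8, 9, 2, 3, 4, 8, 1, 2, 3, 4, 9, 8, 1, 9], wd [4, 8, 9, 8, 7, 5, 6, 4, 5, 3, 4, 8, 2, 3, 4, 5, 6, 7, 10, 5, 6, 7, 6, 4, 8,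 9, 4, 5, 3, 4, 8, 2, 3, 4, 5, 9, 3, 4, 8, 2, 3, 4, 9, 8, 3, 9]]
def a1 : Lv := ⟨4131, wd [10, 7, 6, 4, 5, 3, 4, 2, 3, 1, 2], h1, 3, 324⟩
def a2 : Lv := ⟨293, wd [10, 4, 5, 3, 4, 8, 7, 6, 5, 4, 3, 1, 2], [wd [5, 6, 7, 10, 9, 5, 6, 4, 5, 3, 4, 8, 2, 3, 4, 5, 6, 7, 5, 4, 8, 3, 4, 5, 6, 8, 9, 4, 8, 3, 4, 5, 3, 2], wd [6, 7, 10, 5, 6, 4, 5, 2, 3, 4, 8, 9, 7, 6, 5, 4, 8, 3, 4, 5, 6, 7, 10, 6, 7, 5, 6, 4, 5, 3, 4, 8, 9, 7, 6, 4, 5, 3, 4, 8, 2, 3, 4, 5, 6, 7, 9, 8, 3, 4, 5, 6, 5, 4, 8, 3, 4, 5, 4], wd [4, 5, 3, 4, 8, 9, 6, 5, 4, 8, 3, 4, 5, 6, 7, 10, 8, 9, 7, 6, 5, 3, 4, 8, 2, 3, 4, 5, 6, 7, 9, 5, 4, 8, 2, 3, 4, 5, 6, 4, 8, 9, 4, 5, 3, 4, 8, 2, 3, 4, 5, 3, 9]], 2, 27⟩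
def a3 : Lv := ⟨297, wd [10, 9, 6, 4, 5, 3, 4, 8, 7, 6, 5, 4, 3, 1, 2], [wd [2, 3, 4, 8, 9, 6, 5, 4, 8, 2, 3, 4, 5, 6, 7, 10, 4, 8, 5, 6, 4, 5, 3, 4, 8, 9, 7, 5, 6, 4, 5, 3, 4, 8, 2, 3, 4, 5, 6, 7, 8, 4, 5, 6, 8, 2, 3, 4, 5, 8, 2, 3, 4, 8, 3, 2, 9], wd [8, 6, 7, 5, 6, 3, 4, 5, 2, 3, 4, 8, 9, 8, 4, 5, 3, 4, 8, 2, 3, 4, 5, 6, 7, 4, 5, 6, 8, 3, 4, 5, 4, 8], wd [7, 5, 6, 4, 5, 3, 4, 8, 9, 6, 4, 5, 3, 4, 8, 2, 3, 4, 5, 6, 7, 10, 7, 6, 5, 4, 8, 2, 3, 4, 5, 6, 4, 5, 2, 3, 4, 2, 3, 9]], 2, 18⟩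
def a4 : Lv := ⟨1251, wd [10, 5, 4, 8, 9, 4, 5, 3, 4, 8, 7, 6, 5, 4, 3, 1, 2], [wd [8, 5, 6, 4, 5, 3, 4, 8, 9, 6, 4, 5, 3, 4, 8, 2, 3, 4, 5, 6, 7, 10, 7, 6, 5, 3, 4, 8, 2, 3, 4, 5, 6, 7, 5, 3, 4, 8, 2, 3, 4, 5, 6, 8, 9, 4, 8, 3, 4, 5, 4], wd [7, 5, 6, 4, 5, 3, 4, 8, 9, 8, 7, 6, 4, 5, 3, 4, 8, 2, 3, 4, 5, 6, 7, 5, 4, 8, 3, 4, 5, 6, 9, 4, 8, 2, 3, 4, 5, 8, 3, 2, 3, 9], wd [6, 7, 10, 5, 2, 3, 4, 8, 6, 7, 5, 6, 4, 5, 3, 4, 8, 2, 3, 4, 5, 6, 7, 10, 6, 5, 4, 8, 9, 5, 6, 4, 5, 3, 4, 8, 2, 3, 4, 5, 6, 7, 3, 4, 5, 6, 3, 4, 9, 8]], 2, 9⟩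
def b1 : Lv := ⟨0, wd [10, 7, 6, 5, 4, 8, 3, 4, 5, 6, 7, 10, 2, 3, 4, 8, 5, 6, 4, 5, 3, 4, 8, 7, 6, 5, 4, 3, 1, 2], [wd [1], wd [2], wd [3], wd [4], wd [5], wd [6], wd [7], wd [8], wd [9], wd [10]], 13, 31671⟩
def b2 : Lv := ⟨11589, wd [], [wd [1], wd [2], wd [3], wd [4], wd [5], wd [6], wd [7], wd [8], wd [9]], 6, 3510⟩
def b3 : Lv := ⟨8005, wd [2, 3, 1, 2], [wd [1], wd [3], wd [4], wd [5], wd [6], wd [7], wd [8], wd [9], wd [1, 2, 3, 4, 5, 8, 1, 2, 3, 4, 5, 8, 1, 2, 3, 4, 5, 8, 1, 2, 3, 4, 5, 8, 1, 2, 3, 4, 5, 8]], 4, 693⟩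
def b4 : Lv := ⟨8002, wd [4, 5, 3, 4, 2, 3, 1, 2], [wd [5], wd [6], wd [7], wd [8], wd [9], wd [4, 8, 3, 4, 5, 4, 8, 3, 4], wd [2, 3, 4, 8, 1, 2, 3, 4, 5, 4, 8, 3, 4, 3, 2, 3, 1, 2, 1]], 4, 180⟩
def w0 : W := wd [8, 6, 3, 4, 5, 2, 3, 4, 8, 9, 4, 8, 6, 3, 4, 5, 2, 3, 4, 8, 1, 2, 3, 4, 5, 6, 7, 10, 8, 4, 5, 3, 4, 8, 9, 7, 6, 3, 4, 5, 2, 3, 4, 8, 1, 2, 3, 4, 5, 6, 7, 6, 5, 3, 4, 8, 1, 2, 3, 4, 5, 6, 5, 4, 8, 3, 4, 5, 2, 3, 4, 8, 1, 2, 3, 4, 5, 1, 2, 3, 4, 8, 2, 1, 2, 1, 3, 1, 2, 1]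
def v1 : W := wd [1, 2]
def v2 : W := wd []
def O1 : ℕ := Nat.lor (Nat.lor orb2 orb3) (Nat.lor orb4 orb5)
theorem O1_ok : Nat.beq (net.orbM iv h1 5 8006) O1 = true := by decide +kernel
theorem O2_ok : Nat.beq (net.orbM iv h1 5 11589) orb6 = true := by decide +kernel
-- e1 8006 y1 39 -> 28; e2 11589 y2 20 -> 16; moved 1 -> 2440; letter 4 4131 -> 3152
def cs : List W := [wd [7, 10, 4, 8, 9, 6, 7, 5, 6, 4, 5, 3, 4, 8, 2, 3, 4, 5, 6, 7, 10, 4, 5, 3, 4, 8, 9, 5, 6, 4, 5, 3, 4, 8, 2, 3, 4, 5, 6, 7, 5, 6, 4, 5, 3, 4, 8, 2, 3, 4, 5, 6, 5, 4, 8, 3, 4, 5, 8, 3, 4, 2, 9], wd [7, 6, 4, 5, 3, 4, 8, 9, 7, 6, 4, 5, 3, 4, 8, 2, 3, 4, 5, 6, 7, 10, 4, 8, 5, 6, 4, 5, 2, 3, 4, 8, 9, 6, 7, 5, 6, 4, 5, 3, 4, 8, 2, 3, 4, 5, 6, 7, 5, 2, 3, 4, 8, 9, 4, 5, 3, 4, 8, 2, 3, 4, 5, 6,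 4, 5, 3, 4, 8, 2, 3, 4, 9, 8, 3, 2, 3, 9], wd [10, 1, 2, 3, 4, 8, 9, 5, 4, 8, 6, 7, 5, 6, 3, 4, 5, 2, 3, 4, 8, 9, 8, 5, 6, 4, 5, 2, 3, 4, 8, 1, 2, 3, 4, 5, 6, 7, 10, 5, 4, 8, 6, 7, 5, 6, 3, 4, 5, 2, 3, 4, 8, 9, 8, 7, 5, 6, 4, 5, 2, 3, 4, 8, 1, 2, 3, 4, 5, 6, 7, 8, 4, 5, 3, 4, 8, 9, 6, 5, 4, 8, 3, 4, 5, 6, 9, 5, 4, 8, 3, 4, 5, 2, 3, 4, 8, 1, 2, 3, 4, 5, 8, 9, 4, 8, 1, 2, 3, 4, 8, 3, 2], wd [5, 1, 2, 3, 4, 8, 9, 5, 3, 4, 8, 6, 7, 5, 6, 3, 4, 5, 2, 3, 4, 8, 9, 7, 6, 4, 5, 2, 3, 4, 8, 1, 2, 3, 4, 5, 6, 7, 10, 5, 3, 4, 8, 9, 6, 5, 4, 8, 6, 7, 5, 6, 2, 3, 4, 5, 1, 2, 3, 4, 8, 9, 7, 5, 6, 3, 4, 5, 2, 3, 4, 8, 1, 2, 3, 4, 5, 6, 7, 4, 8, 9, 2, 3, 4, 8, 5, 6, 3, 4, 5, 2, 3, 4, 8, 9, 8, 5, 6, 4, 5, 2, 3, 4, 8, 1, 2, 3, 4, 5, 6, 9, 8, 4, 5, 3, 4, 8, 9, 5, 2, 3, 4,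 8, 1, 2, 3, 4, 5, 8, 1, 2, 3, 4, 8, 2, 3, 1, 2, 1], wd [4, 5, 1, 2, 3, 4, 8, 9, 6, 4, 5, 3, 4, 8, 6, 7, 5, 6, 3, 4, 5, 2, 3, 4, 8, 9, 6, 4, 5, 2, 3, 4, 8, 1, 2, 3, 4, 5, 6, 7, 10, 3, 4, 8, 9, 4, 5, 2, 3, 4, 8, 6, 7, 4, 5, 6, 3, 4, 5, 2, 3, 4, 8, 9, 7, 6, 3, 4, 5, 2, 3, 4, 8, 1, 2, 3, 4, 5, 6, 7, 9, 5, 3, 4, 8, 5, 6, 3, 4, 5, 2, 3, 4, 8, 9, 8, 6, 4, 5, 2, 3, 4, 8, 1, 2, 3, 4, 5, 6, 5, 1, 2, 3, 4, 8, 9, 8, 3, 4, 5, 2, 3, 4, 8, 1, 2, 3, 4, 5, 9, 3, 4, 8, 1, 2, 3, 4, 2, 1, 3], wd [10, 4, 8, 9, 5, 4, 8, 6, 7, 5, 6, 4, 5, 3, 4, 8, 2, 3, 4, 5, 6, 7, 10, 8, 7, 6, 4, 5, 3, 4, 8, 9, 6, 5, 3, 4, 8, 2, 3, 4, 5, 6, 7, 6, 5, 4, 8, 9, 8, 6, 4, 5, 3, 4, 8, 2, 3, 4, 5, 6, 5, 3, 4, 8, 9, 8, 4, 5, 3, 4, 8, 2, 3, 4, 5, 4, 8, 2, 3, 4, 9, 8, 3, 9], wd [10, 4, 5, 2, 3, 4, 8,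 9, 7, 5, 6, 4, 5, 3, 4, 8, 2, 3, 4, 5, 6, 7, 10, 7, 6, 4, 5, 3, 4, 8, 9, 8, 4, 5, 3, 4, 8, 2, 3, 4, 5, 6, 7, 5, 3, 4, 8, 9, 6, 5, 4, 8, 3, 4, 5, 6, 9, 4, 8, 3, 4, 5, 3, 4, 8, 9], wd [7, 10, 7, 6, 5, 2, 3, 4, 8, 9, 7, 6, 5, 3, 4, 8, 2, 3, 4, 5, 6, 7, 10, 8, 7, 6, 3, 4, 5, 2, 3, 4, 8, 9, 6, 7, 5, 6, 4, 5, 3, 4, 8, 2, 3, 4, 5, 6, 7, 4, 5, 2, 3, 4, 8, 9, 6, 5, 3, 4, 8, 2, 3, 4, 5, 6, 4, 8, 9, 5, 3, 4, 8, 2, 3, 4, 5, 8, 9, 4, 8, 3, 4, 9], wd [3, 4, 8, 9, 8, 4, 5, 3, 4, 8, 2, 3, 4, 5, 6, 7, 10, 4, 5, 3, 4, 8, 9, 8, 7, 5, 6, 4, 5, 3, 4, 8, 2, 3, 4, 5, 6, 7, 8, 2, 3, 4, 5, 6, 4, 5, 9, 4, 8, 3, 4, 8, 2, 3], wd [8, 7, 5, 6, 4, 5, 3, 4, 8, 9, 7, 5, 6, 4, 5, 3, 4, 8, 2, 3, 4, 5, 6, 7, 8, 9, 5, 4, 8, 2, 3, 4, 5, 6, 8, 9, 4, 8, 2, 3, 4, 5]]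
def hh : List W := [wd [4, 8, 5, 6, 4, 5, 2, 3, 4, 8, 9, 8, 4, 5, 3, 4, 8, 2, 3, 4, 5, 6, 7, 10, 9, 5, 3, 4, 8, 2, 3, 4, 5, 6, 7, 3, 4, 8, 9, 6, 5, 3, 4, 8, 2, 3, 4, 5, 6, 5, 2, 3, 4, 8, 9, 4, 5, 3, 4, 8, 2, 3, 4, 5, 8, 9, 4, 8, 3, 4, 8, 3, 2, 3], wd [8, 4, 5, 3, 4, 8, 9, 5, 6, 4, 5, 3, 4, 8, 2, 3, 4, 5, 6, 7, 10, 9, 3, 4, 8, 7, 5, 6, 4, 5, 3, 4, 8, 9, 8, 6, 4, 5, 2, 3, 4, 8, 1, 2, 3, 4, 5, 6, 7, 9, 4, 8, 6, 2, 3, 4, 5, 1, 2, 3, 4, 8, 9, 5, 6, 3, 4, 5, 2, 3, 4, 8, 1, 2, 3, 4, 5, 6, 8, 1, 2, 3, 4, 5, 4, 8, 9, 2, 3, 4, 8, 1, 2, 3, 4, 9, 8, 9], wd [10, 7, 5, 6, 4, 5, 3, 4, 8, 2, 3, 4, 5, 6, 7, 10, 5, 3, 4, 8, 9, 6, 7, 5, 6, 4, 5, 3, 4, 8, 2, 3, 4, 5, 6, 7, 9, 4, 5, 3, 4, 8, 2, 3, 4, 5, 6, 9, 4, 8, 3, 4, 5, 3, 4], wd [10, 7, 5, 6, 4, 5, 3, 4, 8, 2, 3, 4, 5,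 6, 7, 10, 5, 3, 4, 8, 6, 7, 5, 6, 4, 5, 3, 4, 8, 2, 3, 4, 5, 6, 7, 9, 3, 4, 8, 5, 6, 4, 5, 3, 4, 8, 2, 3, 4, 5, 6, 9, 4, 8, 2, 3, 4, 5, 8, 2, 3, 4, 3], wd [5, 4, 8, 3, 4, 5, 6, 7, 10, 9, 3, 4, 8, 5, 6, 7, 4, 5, 6, 3, 4, 5, 1, 2, 3, 4, 8, 9, 7, 6, 4, 5, 2, 3, 4, 8, 1, 2, 3, 4, 5, 6, 7, 5, 6, 3, 4, 5, 1, 2, 3, 4, 8, 9, 6, 4, 5, 3, 4, 8, 1, 2, 3, 4, 5, 6, 8, 4, 5, 3, 4, 8, 9, 4, 5, 2, 3, 4, 8, 1, 2, 3, 4, 5, 8, 9, 3, 4, 8, 1, 2, 3, 4, 2, 3], wd [3, 4, 8, 9, 4, 5, 3, 4, 8, 6, 7, 5, 6, 3, 4, 5, 1, 2, 3, 4, 8, 9, 7, 6, 4, 5, 2, 3, 4, 8, 1, 2, 3, 4, 5, 6, 7, 5, 1, 2, 3, 4, 8, 9, 8, 4, 5, 2, 3, 4, 8, 1, 2, 3, 4, 5, 6, 3, 4, 8, 9, 4, 5, 2, 3, 4, 8, 1, 2, 3, 4, 5, 9, 8, 1, 2, 3, 4, 9, 8, 2, 1, 2, 1, 3], wd [6, 5, 3, 4, 8, 9, 6, 7, 5, 6, 4, 5, 3, 4, 8, 2, 3, 4, 5,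 6, 7, 10, 4, 8, 6, 3, 4, 5, 2, 3, 4, 8, 9, 8, 4, 5, 3, 4, 8, 2, 3, 4, 5, 6, 7, 5, 6, 4, 5, 2, 3, 4, 8, 9, 8, 6, 4, 5, 3, 4, 8, 2, 3, 4, 5, 6, 9, 5, 4, 8, 3, 4, 5, 8, 9, 4, 8, 3, 4, 3, 2, 3, 9], wd [2, 3, 4, 8, 9, 5, 4, 8, 3, 4, 5, 6, 7, 10, 8, 9, 4, 8, 7, 5, 6, 4, 5, 3, 4, 8, 9, 7, 4, 5, 6, 3, 4, 5, 2, 3, 4, 8, 1, 2, 3, 4, 5, 6, 7, 5, 4, 8, 3, 4, 5, 2, 3, 4, 8, 9, 6, 3, 4, 5, 2, 3, 4, 8, 1, 2, 3, 4, 5, 6, 9, 5, 3, 4, 8, 1, 2, 3, 4, 5, 8, 9, 4, 8, 1, 2, 3, 4, 8, 1, 3, 1, 2, 1], wd [9, 6, 5, 4, 8, 3, 4, 5, 6, 7, 10, 7, 6, 5, 4, 8, 9, 5, 4, 8, 6, 7, 5, 6, 4, 5, 3, 4, 8, 2, 3, 4, 5, 6, 7, 6, 5, 4, 8, 9, 8, 5, 6, 4, 5, 3, 4, 8, 2, 3, 4, 5, 6, 9, 4, 5, 3, 4, 8, 2, 3, 4, 5, 9, 4, 8, 2, 3, 4, 8, 2, 3]]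
/-- The check of a level. -/
noncomputable def ok (S : ℕ) (l : List Lv) (L : Lv) : Bool := lvOK net 31671 iv 11589 (ptab.mapOK iv) S l L
theorem a1_ok : ok S0 [] a1 = true := by decide +kernel
theorem a2_ok : ok S0 [a1] a2 = true := by decide +kernel
theorem a3_ok : ok S0 [a2, a1] a3 = true := by decide +kernel
theorem a4_ok : ok S0 [a3, a2, a1] a4 = true := by decide +kernel
theorem b1_ok : ok (msk 31671) [] b1 = true := by decide +kernel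
theorem b2_ok : ok (msk 31671) [b1] b2 = true := by decide +kernel
theorem b3_ok : ok (msk 31671) [b2, b1] b3 = true := by decide +kernel
theorem b4_ok : ok (msk 31671) [b3, b2, b1] b4 = true := by decide +kernel
theorem w0_ok : ([(a4, b4), (a3, b3), (a2, b2), (a1, b1)].all fun t => ptab.mapOK iv w0 t.1.b t.2.b) = true := by
  decide +kernel
theorem inv_ok : net.invOK iv (cw a1.u :: cs.getD 0 (.l 0) :: hh) S0 = true := by decide +kernel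
theorem cover : Nat.beq (Nat.lor S0 (Nat.lor O1 orb6)) (msk 31671) = true := by decide +kernel
/-- The commutator of `c` with its conjugate by `h`. -/
def cm (c h : W) : W := .mul (.mul (.mul c (.mul (.mul h c) (.inv h))) (.inv c)) (.inv (.mul (.mul h c) (.inv h)))
theorem der_ok : allLt 9 (fun k => ptab.baseOK iv low
    (.mul (cm (cs.getD k (.l 0)) (hh.getD k (.l 0))) (.inv (cs.getD (k + 1) (.l 0))))) = true := by decide +kernel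

attribute [local instance] act

/-- The subgroup. -/
noncomputable def H : Subgroup Spor.Fi23 := SK Spor.Fi23 31671 (finPt 31671) S0

theorem top_SK : SK Spor.Fi23 31671 (finPt 31671) (msk 31671) = ⊤ := eq_top_iff.2 fun _ _ _ =>
  iff_of_true (Net.mem_maskSet_msk (surj_finPt _) _) (Net.mem_maskSet_msk (surj_finPt _) _)

theorem card_four : Nat.card (St Spor.Fi23 31671 (finPt 31671) (msk 31671) [b4, b3, b2, b1]) = 294912 := by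
  have e1 := card_St tmodel (by simp) b1_ok
  have e2 := card_St tmodel (by decide) b2_ok
  have e3 := card_St tmodel (by decide) b3_ok
  have e4 := card_St tmodel (by decide) b4_ok
  rw [St, top_SK, card_top, card, e2, e3, e4] at e1
  change _ = 31671 * (3510 * (693 * (180 * _))) at e1
  omega

theorem solvable : Group.IsSolvable H := by
  refine Char.isSolvable_of_forall_prime_dvd H 2 3 fun q hq hd => ?_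
  by_contra hn
  have := Fact.mk hq
  have nd : ∀ a b : ℕ, ¬ q ∣ 2 ^ a * 3 ^ b := fun a b h => hn (((Nat.Prime.dvd_mul hq).1 h).imp
    (fun h => (Nat.prime_dvd_prime_iff_eq hq Nat.prime_two).1 (hq.dvd_of_dvd_pow h))
    fun h => (Nat.prime_dvd_prime_iff_eq hq Nat.prime_three).1 (hq.dvd_of_dvd_pow h))
  obtain ⟨g, hg⟩ := exists_prime_orderOf_dvd_card' q hd
  obtain ⟨g, hg, h⟩ := exists_conj tmodel (by simp) a1_ok hq (nd 2 4) ((orderOf_coe g).trans hg) g.2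
  obtain ⟨g, hg, h⟩ := exists_conj tmodel (by decide) a2_ok hq (nd 0 3) hg h
  obtain ⟨g, hg, h⟩ := exists_conj tmodel (by decide) a3_ok hq (nd 1 2) hg h
  obtain ⟨g, hg, h⟩ := exists_conj tmodel (by decide) a4_ok hq (nd 0 2) hg h
  have key : ∀ t ∈ [(a4, b4), (a3, b3), (a2, b2), (a1, b1)],
      (w0.ev gam * g * (w0.ev gam)⁻¹) • finPt 31671 t.2.b = finPt 31671 t.2.b := fun t ht => by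
    rw [← pts.smul_eq isLab (List.all_eq_true.1 w0_ok t ht), mul_smul, mul_smul, inv_smul_smul,
      (mem_St.1 h).2 t.1 (List.mem_map_of_mem (f := Prod.fst) ht)]
  have hm : w0.ev gam * g * (w0.ev gam)⁻¹ ∈ St Spor.Fi23 31671 (finPt 31671) (msk 31671) [b4, b3, b2, b1] :=
    mem_St.2 ⟨top_SK ▸ mem_top _, fun Q hQ => by
      obtain ⟨t, ht, rfl⟩ := List.mem_map.1 (show Q ∈ [(a4, b4), (a3, b3), (a2, b2), (a1, b1)].map Prod.snd from hQ)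
      exact key t ht⟩
  have := orderOf_dvd_natCard _ hm
  rw [card_four, ← MulAut.conj_apply, MulEquiv.orderOf_eq, hg] at this
  exact nd 15 2 this

theorem derived : derivedSeries H 9 ≠ ⊥ := fun e => by
  have hi := mem_SK tmodel inv_ok
  have : ∀ k ≤ 9, (cs.getD k (.l 0)).ev gam ∈ (derivedSeries H k).map H.subtype := fun k hk => by
    induction k with
    | zero => exact ⟨⟨_, hi _ (List.mem_cons_of_mem _ List.mem_cons_self)⟩, mem_top _, rfl⟩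
    | succ k ih =>
      rw [← model.pt_eq pts _ _ (of_allLt der_ok (show k < 9 by omega))]
      refine comm_mem (ih (by omega)) (hi _ (List.mem_cons_of_mem _ (List.mem_cons_of_mem _ ?_)))
      rw [List.getD_eq_getElem _ _ (show k < hh.length by change k < 9; omega)]
      exact List.getElem_mem _
  have := this 9 le_rfl
  rw [e, Subgroup.map_bot, mem_bot] at this
  exact model.pt_ne_one pts rfl _ 1 2440 (by decide +kernel) (by decide) this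

theorem coatom : IsCoatom H := by
  have M := tmodel
  have mm := fun {s i : ℕ} (h : i < 31671) => mem_maskSet (X := Fin 31671) (s := s) M.inj h
  refine ⟨fun e => ?_, fun K hK => ?_⟩
  · have := (e.ge (mem_top (gam 4)) (finPt 31671 4131)).2 ((mm (by decide)).2 (by decide +kernel))
    rw [show gam 4 • finPt 31671 4131 = finPt 31671 3152 from pts.smul_eq isLab (t := .l 4) (by decide +kernel),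
      mm (by decide)] at this
    exact absurd this (by decide +kernel)
  have inv : ∀ g ∈ K, ∀ x, M.act.tr x ∈ K → M.act.tr (g • x) ∈ K := fun g hg x hx =>
    M.act.tr_smul g x ▸ mul_mem (mul_mem hg hx) (inv_mem hg)
  have orb : ∀ {r i s : ℕ}, Nat.beq (net.orbM iv h1 r i) s = true → ∀ x ∈ maskSet 31671 (finPt 31671) s,
      (M.act.tr x ∈ K ↔ M.act.tr (finPt 31671 i) ∈ K) := fun {r i s} h x hx => by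
    obtain ⟨g, rfl⟩ := M.ok.orbM_subset M.inj M.lab M.acts (H := K)
      (fun t ht => hK.le (mem_SK M (S := S0) (ts := h1) (by decide +kernel) t ht)) r i (beq_iff.1 h ▸ hx)
    exact ⟨fun h => inv_smul_smul (g : Spor.Fi23) (finPt 31671 i) ▸ inv _ (inv_mem g.2) _ h, inv _ g.2 _⟩
  have o0 : ∀ x ∈ maskSet 31671 (finPt 31671) S0, M.act.tr x ∈ K := fun x hx =>
    (orb (r := 3) (i := 4131) (by decide +kernel) x hx).2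
      (M.tr_eq (u := a1.u) (x := 4131) (by decide +kernel) ▸ hK.le (mem_SK M inv_ok _ List.mem_cons_self))
  have o1 := orb O1_ok
  have o2 := orb O2_ok
  have cov : ∀ x, x ∈ maskSet 31671 (finPt 31671) S0 ∨ x ∈ maskSet 31671 (finPt 31671) O1 ∨
      x ∈ maskSet 31671 (finPt 31671) orb6 := fun x => by
    obtain ⟨i, hi, rfl⟩ := M.surj x
    have := Net.testBit_msk hi
    rw [← beq_iff.1 cover] at this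
    change (S0 ||| (O1 ||| orb6)).testBit i = true at this
    rwa [Nat.testBit_or, Nat.testBit_or, Bool.or_eq_true, Bool.or_eq_true, ← mm hi, ← mm hi, ← mm hi] at this
  have i12 : M.act.tr (finPt 31671 8006) ∈ K ↔ M.act.tr (finPt 31671 11589) ∈ K := ⟨fun h => by
    have := inv _ h _ ((o1 (finPt 31671 39) ((mm (by decide)).2 (by decide +kernel))).2 h)
    rw [M.tr_eq (u := v1) (x := 8006) (by decide +kernel), M.map (cw v1) 39 28 (by decide +kernel)] at this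
    exact (o2 _ ((mm (by decide)).2 (by decide +kernel))).1 this, fun h => by
    have := inv _ h _ ((o2 (finPt 31671 20) ((mm (by decide)).2 (by decide +kernel))).2 h)
    rw [M.tr_eq (u := v2) (x := 11589) (by decide +kernel), M.map (cw v2) 20 16 (by decide +kernel)] at this
    exact (o1 _ ((mm (by decide)).2 (by decide +kernel))).1 this⟩
  by_cases h : M.act.tr (finPt 31671 8006) ∈ K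
  · refine eq_top_iff.2 (M.cls.2.2 ▸ (closure_le _).2 fun e he => ?_)
    obtain ⟨x, rfl⟩ := M.act.exists_tr he
    rcases cov x with hx | hx | hx
    exacts [o0 x hx, (o1 x hx).2 h, (o2 x hx).2 (i12.1 h)]
  · have e : ∀ x, x ∈ maskSet 31671 (finPt 31671) S0 ↔ M.act.tr x ∈ K := fun x => ⟨o0 x, fun hx =>
      (cov x).resolve_right fun h' => h (h'.elim (fun h' => (o1 x h').1 hx) fun h' => i12.2 ((o2 x h').1 hx))⟩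
    refine absurd (fun g hg x => ?_) hK.not_ge
    rw [e, e]
    exact ⟨fun h => inv_smul_smul g x ▸ inv _ (inv_mem hg) _ h, inv g hg x⟩

end Cfsg.Lib.F23
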